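import Groth.Agent.Old.H32.ChevPoint
import Groth.Prelude.Def_EGA43

/-!
# Chevalley's criterion for equidimensional morphisms, at a point

`exists_generic_of_isEquidimAt`: pointwise consequences of `EGA43.IsEquidimAt f x`.
`isUnivOpenAt_of_isEquidimAt`: Chevalley's criterion at one point.
-/

set_option autoImplicit false
open CategoryTheory AlgebraicGeometry Limits TopologicalSpace
universe u

namespace Groth.Agent.Old.H32.EquidimPoint

open EGA43 Groth.Agent.CycB.RelDim Groth.Agent

/-- Pointwise consequences of equidimensionality at `x`: there is an open neighbourhood `U` of `x` and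
an `e` such that every maximal point `ξ` of `U` maps to a maximal point of `Y`, has
`trdeg κ(ξ)/κ(f ξ) = e`, and every point `w` of `U` has `trdeg κ(w)/κ(f w) ≤ e`. -/
theorem exists_of_isEquidimAt {X Y : Scheme.{u}} (f : X ⟶ Y) [LocallyOfFiniteType f] (x : X)
    (h : EGA43.IsEquidimAt f x) :
    ∃ (e : ℕ) (U : X.Opens), x ∈ U ∧
      (∀ ξ ∈ U, (∀ ξ' : X, ξ' ⤳ ξ → ξ' = ξ) →
        (∀ y : Y, y ⤳ f ξ → y = f ξ) ∧ f ξ ⤳ f x ∧ rtd f ξ = e) ∧
      (∀ w ∈ U, rtd f w ≤ e) := by
  obtain ⟨e, U, hxU, h1, h2⟩ := h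
  refine ⟨e, U, hxU, ?_, ?_⟩
  · intro ξ hξU hξ
    let ζ : (U : Scheme.{u}) := ⟨ξ, hξU⟩
    have hζmax : ∀ ζ' : (U : Scheme.{u}), ζ' ⤳ ζ → ζ' = ζ := by
      intro ζ' hζ'
      apply U.ι.isOpenEmbedding.injective
      exact hξ _ (hζ'.map U.ι.continuous)
    have hcomp : closure {ζ} ∈ irreducibleComponents (↥U : Type u) := by
      refine ⟨isIrreducible_singleton.closure, fun S hS hle => ?_⟩
      have hS' : IsIrreducible (closure S) := hS.closure
      have hQ : QuasiSober ↥U := U.isOpen.isOpenEmbedding_subtypeVal.quasiSober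
      obtain ⟨s, hs⟩ := QuasiSober.sober hS' isClosed_closure
      have hsx : s ⤳ ζ := by
        rw [specializes_iff_mem_closure, hs.def]
        exact subset_closure (hle (subset_closure rfl))
      have h4 : s = ζ := hζmax s hsx
      have h5 : S ⊆ closure {s} := by rw [hs.def]; exact subset_closure
      exact h4 ▸ h5
    obtain ⟨W, hW, hxW, hWc⟩ := h1 _ hcomp
    have hWc' : closure {f ξ} = W := by
      rw [← hWc]
      apply le_antisymm
      · exact closure_mono (Set.singleton_subset_iff.mpr ⟨ζ, subset_closure rfl, rfl⟩)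
      · refine closure_minimal ?_ isClosed_closure
        refine (image_closure_subset_closure_image (U.ι ≫ f).continuous).trans ?_
        exact closure_mono (Set.image_singleton (f := (U.ι ≫ f)) (a := ζ)).subset
    refine ⟨?_, ?_, ?_⟩
    · intro y hy
      have h5 : W ≤ closure {y} := by
        rw [← hWc']
        exact hy.closure_subset
      have h6 : closure {y} ≤ W := hW.2 isIrreducible_singleton.closure h5
      have h7 : f ξ ⤳ y := by
        rw [specializes_iff_mem_closure, hWc']
        exact h6 (subset_closure rfl)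
      exact (hy.antisymm h7).eq
    · rw [specializes_iff_mem_closure, hWc']
      exact hxW
    · have hfg : FibGeneric (U.ι ≫ f) ζ := fun x' _ hx' => hζmax x' hx'
      have h3 := h2 ζ _ hfg.closure_mem
      obtain ⟨n, hn, hn'⟩ := exists_dim_closure_fiber (U.ι ≫ f) ((U.ι ≫ f) ζ)
        ((U.ι ≫ f).asFiber ζ)
      rw [Scheme.Hom.fiberι_asFiber] at hn
      have h4 : ((n : ℕ) : WithBot ℕ∞) = e := hn'.symm.trans h3
      have h5 : n = e := by exact_mod_cast h4
      rw [← h5, ← hn]
      exact (VarietyA.LocDim.rtd_ι_comp U f ζ).symm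
  · intro w hw
    let w' : (U : Scheme.{u}) := ⟨w, hw⟩
    obtain ⟨n, hn, hn'⟩ := exists_dim_closure_fiber (U.ι ≫ f) ((U.ι ≫ f) w')
      ((U.ι ≫ f).asFiber w')
    rw [Scheme.Hom.fiberι_asFiber] at hn
    have h3 := h2 w' _ (irreducibleComponent_mem_irreducibleComponents ((U.ι ≫ f).asFiber w'))
    have h4 : topologicalKrullDim (closure {(U.ι ≫ f).asFiber w'} :
        Set ((U.ι ≫ f).fiber ((U.ι ≫ f) w'))) ≤
        topologicalKrullDim (irreducibleComponent ((U.ι ≫ f).asFiber w')) := by
      refine VarietyB.DimTop.topologicalKrullDim_le_of_isEmbedding (f := id)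
        Topology.IsInducing.id _ _ ?_
      intro y hy
      exact closure_minimal (Set.singleton_subset_iff.mpr mem_irreducibleComponent)
        isClosed_irreducibleComponent hy
    rw [hn', h3] at h4
    have h5 : n ≤ e := by exact_mod_cast h4
    have h6 : rtd f w = n := by
      rw [← hn]
      exact (VarietyA.LocDim.rtd_ι_comp U f w').symm
    rw [h6]
    exact_mod_cast h5

/-- Every point of a scheme has a maximal generization. -/
theorem exists_maximal_specializes {X : Scheme.{u}} (x : X) :
    ∃ ξ : X, ξ ⤳ x ∧ ∀ ξ' : X, ξ' ⤳ ξ → ξ' = ξ := by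
  have hT := irreducibleComponent_mem_irreducibleComponents x
  have hTc : IsClosed (irreducibleComponent x) := isClosed_irreducibleComponent
  obtain ⟨ξ, hξ⟩ := QuasiSober.sober hT.1 hTc
  refine ⟨ξ, ?_, ?_⟩
  · rw [specializes_iff_mem_closure, hξ.def]
    exact mem_irreducibleComponent
  · intro ξ' hξ'
    have h1 : irreducibleComponent x ≤ closure {ξ'} := by
      rw [← hξ.def]
      exact hξ'.closure_subset
    have h2 := hT.2 isIrreducible_singleton.closure h1
    have h3 : ξ ⤳ ξ' := by
      rw [specializes_iff_mem_closure, hξ.def]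
      exact h2 (subset_closure rfl)
    exact (hξ'.antisymm h3).eq

/-- **Chevalley's criterion at a point**: a morphism locally of finite type to a locally Noetherian
scheme with geometrically unibranch local rings is universally open at every point where it is
equidimensional. -/
theorem isUnivOpenAt_of_isEquidimAt {X Y : Scheme.{u}} [IsLocallyNoetherian Y]
    (hY : ∀ y : Y, CAlg2.IsGeomUnibranch (Y.presheaf.stalk y)) (f : X ⟶ Y) [LocallyOfFiniteType f]
    (x : X) (h : EGA43.IsEquidimAt f x) : IsUnivOpenAt f x := by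
  obtain ⟨e, U, hxU, h1, h2⟩ := exists_of_isEquidimAt f x h
  obtain ⟨ξ, hξx, hξ⟩ := exists_maximal_specializes x
  obtain ⟨h3, -, h4⟩ := h1 ξ (hξx.mem_open U.2 hxU) hξ
  exact ChevPoint.isUnivOpenAt_of_specializes_generic hY f x ξ hξx h3 e
    (fun w _ hwx _ => h2 w (hwx.mem_open U.2 hxU)) h4.ge

end Groth.Agent.Old.H32.EquidimPoint
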