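import Groth.Agent.Ega43.ChevalleyCrit
import Groth.Agent.Ega43.UnivOpenAt
import Groth.Agent.CycA.ClosurePt
import Groth.Agent.Ega1.LocNoethNhd
import Groth.Agent.Flat2G.EtUnibranch
import Groth.Agent.VarietyA.LocDim

/-!
# Chevalley's openness criterion at a point (pointwise form, one generization)

`isUnivOpenAt_of_specializes_generic`: over a locally Noetherian base with geometrically unibranch
local rings, a morphism locally of finite type is universally open at `x` as soon as some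
generization `ξ` of `x` maps to a maximal point of the base and all the points `w` with
`ξ ⤳ w ⤳ x`, `f w = f x` have `trdeg κ(w)/κ(f w) ≤ trdeg κ(ξ)/κ(f ξ)`.
-/

set_option autoImplicit false
open CategoryTheory AlgebraicGeometry Limits TopologicalSpace
universe u

namespace Groth.Agent.Old.H32.ChevPoint

open EGA43 Groth.Agent.CycB.RelDim Groth.Agent.Ega43 Groth.Agent

/-- Universal openness at `x`, from one generization `ξ` of `x` lying over a maximal point of the
base, where the fibres of `closure {ξ}` have at `x` dimension at most the transcendence degree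
at `ξ`. -/
theorem isUnivOpenAt_of_specializes_generic {X Y : Scheme.{u}} [IsLocallyNoetherian Y]
    (hY : ∀ y : Y, CAlg2.IsGeomUnibranch (Y.presheaf.stalk y)) (f : X ⟶ Y) [LocallyOfFiniteType f]
    (x ξ : X) (hξx : ξ ⤳ x) (hξ : ∀ y : Y, y ⤳ f ξ → y = f ξ) (d : ℕ)
    (hd : ∀ w : X, ξ ⤳ w → w ⤳ x → f w = f x → rtd f w ≤ d) (hdξ : (d : Cardinal.{u}) ≤ rtd f ξ) :
    IsUnivOpenAt f x := by
  -- an irreducible neighbourhood of `f x`
  have hnil : (nilradical (Y.presheaf.stalk (f x))).IsPrime :=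
    (Ideal.Quotient.isDomain_iff_prime _).mp (hY (f x)).1.1
  obtain ⟨V, hxV, -, hV⟩ := Ega1.LocNoethNhd.exists_irreducible_nhd (f x) hnil
  -- the closure of `ξ`
  obtain ⟨Z, i, hi, hZ, hiξ, hir⟩ := CycA.ClosurePt.exists_closure_subscheme ξ
  obtain ⟨x₀, hx₀⟩ : x ∈ Set.range i := by
    rw [hir]
    exact specializes_iff_mem_closure.mp hξx
  let g : Z ⟶ Y := i ≫ f
  have hg : ∀ w : Z, g w = f (i w) := fun w => Scheme.Hom.comp_apply _ _ _
  have hx₀V : x₀ ∈ g ⁻¹ᵁ V := by
    change g x₀ ∈ V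
    rw [hg, hx₀]
    exact hxV
  have hVi : IrreducibleSpace V := Subtype.irreducibleSpace hV
  let W : Z.Opens := g ⁻¹ᵁ V
  let x₁ : (W : Scheme.{u}) := ⟨x₀, hx₀V⟩
  have hWne : Nonempty W := ⟨x₁⟩
  have hWi : IrreducibleSpace W := by
    infer_instance
  let g' : (W : Scheme.{u}) ⟶ V := g ∣_ V
  have hg' : g' ≫ V.ι = W.ι ≫ i ≫ f := by
    rw [morphismRestrict_ι]
  have hcomm : ∀ w : (W : Scheme.{u}), V.ι (g' w) = f (i (W.ι w)) := by
    intro w
    rw [← Scheme.Hom.comp_apply, hg', Scheme.Hom.comp_apply, Scheme.Hom.comp_apply]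
  have hrtd' : ∀ w : (W : Scheme.{u}), rtd g' w = rtd f (i (W.ι w)) := by
    intro w
    have h1 := rtd_comp g' V.ι w
    have h2 := rtd_comp W.ι (i ≫ f) w
    have h3 := rtd_comp i f (W.ι w)
    rw [hg', h2, h3, rtd_eq_zero_of_isPreimmersion V.ι, rtd_eq_zero_of_isPreimmersion W.ι,
      rtd_eq_zero_of_isPreimmersion i, zero_add, add_zero, add_zero] at h1
    exact h1.symm
  let ξ₁ : (W : Scheme.{u}) := ⟨genericPoint Z, (genericPoint_specializes x₀).mem_open W.2 hx₀V⟩
  have hξ₁ : W.ι ξ₁ = genericPoint Z := rfl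
  have hξW : genericPoint (W : Scheme.{u}) = ξ₁ := by
    apply W.ι.isOpenEmbedding.injective
    rw [hξ₁]
    have h1 : W.ι (genericPoint (W : Scheme.{u})) ⤳ W.ι ξ₁ :=
      (genericPoint_specializes ξ₁).map W.ι.continuous
    have h2 : genericPoint Z ⤳ W.ι (genericPoint (W : Scheme.{u})) := genericPoint_specializes _
    exact (h1.antisymm h2).eq
  -- `f ξ` is the generic point of `V`
  have hηV : V.ι (genericPoint (V : Scheme.{u})) = f ξ := by
    have h1 : V.ι (genericPoint (V : Scheme.{u})) ⤳ V.ι (g' ξ₁) :=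
      (genericPoint_specializes _).map V.ι.continuous
    rw [hcomm, hξ₁, hiξ] at h1
    exact hξ _ h1
  have hdom : IsDominant g' := by
    have h1 : g' ξ₁ = genericPoint (V : Scheme.{u}) := by
      apply V.ι.isOpenEmbedding.injective
      rw [hcomm, hξ₁, hiξ, hηV]
    constructor
    rw [denseRange_iff_closure_range, Set.eq_univ_iff_forall]
    intro v
    have h2 : g' ξ₁ ⤳ v := by rw [h1]; exact genericPoint_specializes v
    have h3 : ({g' ξ₁} : Set (V : Scheme.{u})) ⊆ Set.range g' :=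
      Set.singleton_subset_iff.mpr (Set.mem_range_self ξ₁)
    exact closure_mono h3 (specializes_iff_mem_closure.mp h2)
  have hYV : ∀ v : (V : Scheme.{u}), CAlg2.IsGeomUnibranch ((V : Scheme.{u}).presheaf.stalk v) := by
    intro v
    have e := (asIso (V.ι.stalkMap v)).commRingCatIsoToRingEquiv
    exact Flat2G.EtUnibranch.isGeomUnibranch_of_ringEquiv e (hY _)
  have hx₁ : i (W.ι x₁) = x := hx₀
  have hle : FlatMor.fibreDimAt g' x₁ ≤ d := by
    apply VarietyA.LocDim.fibreDimAt_le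
    intro w hw hgw
    rw [hrtd']
    apply hd
    · have h0 : i (genericPoint Z) ⤳ i (W.ι w) := (genericPoint_specializes _).map i.continuous
      rwa [hiξ] at h0
    · have := (hw.map W.ι.continuous).map i.continuous
      rwa [hx₁] at this
    · rw [← hcomm, hgw, hcomm, hx₁]
  have hge : (d : WithBot ℕ∞) ≤ FlatMor.fibreDimAt g' (genericPoint (W : Scheme.{u})) := by
    obtain ⟨n, hn, hn'⟩ := VarietyA.LocDim.le_fibreDimAt g' ξ₁ ξ₁ specializes_rfl rfl
    rw [hξW]
    refine le_trans ?_ hn'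
    rw [hrtd', hξ₁, hiξ] at hn
    rw [hn] at hdξ
    exact_mod_cast hdξ
  obtain ⟨U, hx₁U, hU⟩ := ChevalleyCrit.exists_universallyOpen_nhd hYV g' x₁ d hle hge
  have h1 : UniversallyOpen ((U.ι ≫ g') ≫ V.ι) := inferInstance
  rw [Category.assoc, hg', ← Category.assoc, ← Category.assoc] at h1
  have h2 := (UnivOpenAt.universallyOpen_iff_forall_isUnivOpenAt _).mp h1 ⟨x₁, hx₁U⟩
  have h3 := UnivOpenAt.isUnivOpenAt_of_comp _ _ _ h2
  have h4 : ((U.ι ≫ W.ι) ≫ i) ⟨x₁, hx₁U⟩ = x := hx₁
  rwa [h4] at h3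

end Groth.Agent.Old.H32.ChevPoint
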